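import Cfsg.Agent.H378.ExcAdj
import Cfsg.Agent.S1025
import Cfsg.Agent.H493.PGRed

/-!
# `E₈(F)` has elements of order 15 (helper343, for S3635)

`c = n₁ n₃ n₄ n₂` (a Coxeter element of a subsystem of type `A₄`) and `a = n₆ n₇` (type `A₂`) commute, the order of `c` is
divisible by 5, the order of `a` by 3 (they permute the root subgroups).
-/

set_option autoImplicit false

namespace Cfsg.Agent.H343.PG.E8Ord

open Cfsg Cfsg.Lie Cfsg.Lie.ChevalleyDatum
open Cfsg.Agent.ChevalleyStructure Cfsg.Agent.ChevalleyStructure.Elts Cfsg.Agent.ChevalleyStructure.CoxeterGeomTypes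
open Cfsg.Agent.Nodes.RGDChev Cfsg.Agent.Nodes.Reps

universe u

variable {F : Type u} [Field F]

theorem e8T : IsType chevE8 8 CoxeterMatrix.E₈ := by simp [IsType, typeList]

theorem hL : InList chevE8 := e8T.inList

/-- a permutation of the root subgroups -/
def Perms (F : Type u) [Field F] (n : GL chevE8.Idx F) (f : ℕ → ℕ) : Prop :=
  ∀ r < 240, f r < 240 ∧ cj n (chevE8.rootSubgroup F r) = chevE8.rootSubgroup F (f r)

theorem nroots : chevE8.nroots = 240 := by decide +kernel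

theorem perms_nn (i : Fin 8) : Perms F (nn e8T F i) (chevE8.reflectRoot i) := by
  intro r hr
  have hr' : r < chevE8.nroots := by rw [nroots]; exact hr
  have h1 := NPerm.reflectRoot_lt hL (lt_rank e8T i) hr'
  have h2 := cj_nn (K := F) e8T i hr'
  rw [XV_vec e8T F hr', XV_vec e8T F h1] at h2
  rw [nroots] at h1
  exact ⟨h1, h2⟩

theorem Perms.mul {n k : GL chevE8.Idx F} {f g : ℕ → ℕ} (h1 : Perms F n f) (h2 : Perms F k g) :
    Perms F (n * k) (f ∘ g) := by
  intro r hr
  obtain ⟨h3, h4⟩ := h2 r hr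
  obtain ⟨h5, h6⟩ := h1 (g r) h3
  exact ⟨h5, by rw [cj_mul, h4, h6]; rfl⟩

theorem Perms.pow {n : GL chevE8.Idx F} {f : ℕ → ℕ} (h : Perms F n f) (k : ℕ) : Perms F (n ^ k) (f^[k]) := by
  induction k with
  | zero =>
    intro r hr
    exact ⟨hr, by rw [pow_zero, cj_one]; rfl⟩
  | succ k ih =>
    rw [pow_succ, Function.iterate_succ]
    exact ih.mul h

theorem Perms.dvd {n : GL chevE8.Idx F} {f : ℕ → ℕ} (h : Perms F n f) {p : ℕ} (hp : p.Prime) {r : ℕ} (hr : r < 240)
    (h1 : f^[p] r = r) (h2 : f r ≠ r) : p ∣ orderOf n := by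
  have h3 := (h.pow (orderOf n) r hr)
  rw [pow_orderOf_eq_one, cj_one] at h3
  have h4 : f^[orderOf n] r = r := by
    refine (NPerm.rootSubgroup_injective hL F ?_ ?_ h3.2).symm
    · exact nroots ▸ hr
    · exact h3.1.trans_eq nroots.symm
  have := Fact.mk hp
  have h5 : Function.minimalPeriod f r = p := Function.minimalPeriod_eq_prime h1 h2
  rw [← h5]
  exact Function.IsPeriodicPt.minimalPeriod_dvd h4

/-- commuting root elements -/
theorem comm_of_nil {r s : ℕ} (hr : r < chevE8.nroots) (hs : s < chevE8.nroots) (hrs : s ≠ r)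
    (hneg : s ≠ chevE8.neg r) (hc : chevE8.commTerms r s = []) (t u : F) :
    Commute (xG hL s u) (xG hL r t) := by
  apply Units.ext
  have h := Cfsg.Agent.S1025.result chevE8 hL r s hr hs hrs hneg t u
  have h2 : chevE8.commWord F r s t u = [] := by
    unfold ChevalleyDatum.commWord
    rw [hc]
    rfl
  rw [h2, wordMat_nil, mul_one] at h
  exact h

theorem tab : ∀ i ∈ [5, 6], ∀ j ∈ [0, 1, 2, 3], ∀ s ∈ [chevE8.simple i, chevE8.neg (chevE8.simple i)],
    ∀ r ∈ [chevE8.simple j, chevE8.neg (chevE8.simple j)], r < chevE8.nroots ∧ s < chevE8.nroots ∧ s ≠ r ∧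
      s ≠ chevE8.neg r ∧ chevE8.commTerms r s = [] := by
  decide +kernel

theorem commute_nn {i j : Fin 8} (hi : (i : ℕ) ∈ [5, 6]) (hj : (j : ℕ) ∈ [0, 1, 2, 3]) :
    Commute (nn e8T F i) (nn e8T F j) := by
  have key : ∀ s ∈ [chevE8.simple i, chevE8.neg (chevE8.simple i)], ∀ r ∈ [chevE8.simple j, chevE8.neg (chevE8.simple j)],
      ∀ t u : F, Commute (xG hL s u) (xG hL r t) := by
    intro s hs r hr t u
    obtain ⟨h1, h2, h3, h4, h5⟩ := tab i hi j hj s hs r hr
    exact comm_of_nil h1 h2 h3 h4 h5 t u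
  have hn : ∀ k : Fin 8, nn e8T F k = xG hL (chevE8.simple k) 1 * (xG hL (chevE8.neg (chevE8.simple k)) (-1⁻¹) *
      (xG hL (chevE8.simple k) 1 * 1)) := by
    intro k
    show wordG hL (chevE8.nWord (chevE8.simple k) (1 : F)) = _
    unfold ChevalleyDatum.nWord
    rw [wordG_cons, wordG_cons, wordG_cons, wordG_nil]
  have key2 : ∀ s ∈ [chevE8.simple i, chevE8.neg (chevE8.simple i)], ∀ u : F, Commute (xG hL s u) (nn e8T F j) := by
    intro s hs u
    rw [hn j]
    exact (key s hs _ (by simp) 1 u).mul_right ((key s hs _ (by simp) _ u).mul_right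
      ((key s hs _ (by simp) 1 u).mul_right (Commute.one_right _)))
  rw [hn i]
  exact (key2 _ (by simp) 1).mul_left ((key2 _ (by simp) _).mul_left ((key2 _ (by simp) 1).mul_left (Commute.one_left _)))

variable (F) in
/-- the element of order divisible by 5 -/
def cc : GL chevE8.Idx F := nn e8T F 0 * (nn e8T F 2 * (nn e8T F 3 * nn e8T F 1))

variable (F) in
/-- the element of order divisible by 3 -/
def aa : GL chevE8.Idx F := nn e8T F 5 * nn e8T F 6

/-- the permutation of `cc` -/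
def fc : ℕ → ℕ := chevE8.reflectRoot 0 ∘ (chevE8.reflectRoot 2 ∘ (chevE8.reflectRoot 3 ∘ chevE8.reflectRoot 1))

/-- the permutation of `aa` -/
def fa : ℕ → ℕ := chevE8.reflectRoot 5 ∘ chevE8.reflectRoot 6

theorem orb : fc^[5] 162 = 162 ∧ fc 162 ≠ 162 ∧ fa^[3] 123 = 123 ∧ fa 123 ≠ 123 := by decide +kernel

theorem five_dvd : 5 ∣ orderOf (cc F) :=
  ((perms_nn 0).mul ((perms_nn 2).mul ((perms_nn 3).mul (perms_nn 1)))).dvd Nat.prime_five (r := 162) (by norm_num) orb.1
    orb.2.1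

theorem three_dvd : 3 ∣ orderOf (aa F) :=
  ((perms_nn 5).mul (perms_nn 6)).dvd Nat.prime_three (r := 123) (by norm_num) orb.2.2.1 orb.2.2.2

theorem commute : Commute (aa F) (cc F) := by
  have h : ∀ i j : Fin 8, (i : ℕ) ∈ [5, 6] → (j : ℕ) ∈ [0, 1, 2, 3] → Commute (nn e8T F i) (nn e8T F j) :=
    fun i j hi hj => commute_nn hi hj
  unfold aa cc
  have h5 : ∀ i : Fin 8, (i : ℕ) ∈ [5, 6] → Commute (nn e8T F i) (nn e8T F 0 * (nn e8T F 2 * (nn e8T F 3 * nn e8T F 1))) :=
    fun i hi => (h i 0 hi (by decide)).mul_right ((h i 2 hi (by decide)).mul_right ((h i 3 hi (by decide)).mul_right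
      (h i 1 hi (by decide))))
  exact (h5 5 (by decide)).mul_left (h5 6 (by decide))

/-- **`E₈(F)` has an element of order 15.** -/
theorem exists_fifteen (F : Type u) [Field F] [Finite F] : ∃ x : ↥(chevE8.group F), orderOf x = 15 := by
  have hm : ∀ i : Fin 8, nn e8T F i ∈ chevE8.group F := fun i => nn_mem_group e8T i
  have ha : aa F ∈ chevE8.group F := mul_mem (hm 5) (hm 6)
  have hc : cc F ∈ chevE8.group F := mul_mem (hm 0) (mul_mem (hm 2) (mul_mem (hm 3) (hm 1)))
  have hfin : Finite ↥(chevE8.group F) := inferInstance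
  let a : ↥(chevE8.group F) := ⟨aa F, ha⟩
  let c : ↥(chevE8.group F) := ⟨cc F, hc⟩
  have hac : Commute a c := Subtype.ext commute
  have h3 : 3 ∣ orderOf a := by
    rw [Subgroup.orderOf_mk]
    exact three_dvd
  have h5 : 5 ∣ orderOf c := by
    rw [Subgroup.orderOf_mk]
    exact five_dvd
  obtain ⟨i, hi⟩ := Cfsg.Agent.H493.PG.exists_pow_orderOf (orderOf_pos a).ne' h3
  obtain ⟨j, hj⟩ := Cfsg.Agent.H493.PG.exists_pow_orderOf (orderOf_pos c).ne' h5
  refine ⟨a ^ i * c ^ j, ?_⟩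
  rw [(hac.pow_pow i j).orderOf_mul_eq_mul_orderOf_of_coprime (by rw [hi, hj]; norm_num), hi, hj]

end Cfsg.Agent.H343.PG.E8Ord
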