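import Mathlib
import Cfsg.Agent.Lib.Zsigmondy

/-!
# Number theory for the prime graph of `²F₄(q)`, `q = 2 b²`, `b = 2 ^ m` (helper343, for S3635)

`fN d b = q² + d √(2q³) + q + d √(2q) + 1` for `d = ±1`:

* `mod_twelve` : its prime divisors are 1 modulo 12; `not_both` : the two numbers are coprime;
* `pow_eq` : if it is a power of a prime then the exponent is 1; `ne_757`;
* `psl_num` : the final contradiction for `PSL₂(p ^ f)`.
-/

set_option autoImplicit false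

namespace Cfsg.Agent.H343.PG

/-- the two factors of `q⁴ - q² + 1`, `q = 2 b²` -/
def fN (d b : ℤ) : ℤ := 4 * b ^ 4 + 4 * d * b ^ 3 + 2 * b ^ 2 + 2 * d * b + 1

theorem fN_mul (b : ℤ) : fN 1 b * fN (-1) b = (2 * b ^ 2) ^ 4 - (2 * b ^ 2) ^ 2 + 1 := by
  unfold fN
  ring

theorem fN_sub_one (d b : ℤ) : fN d b - 1 = 2 * b * (b + d) * (2 * b ^ 2 + 1) := by
  unfold fN
  ring

theorem fN_eq (d b : ℤ) : fN d b = (2 * b ^ 2 + 1) * (2 * b ^ 2 + 2 * d * b) + 1 := by
  unfold fN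
  ring

theorem z_two : ∀ z : ZMod 2, z ^ 4 - z ^ 2 + 1 ≠ 0 := by decide

theorem z_three : ∀ z : ZMod 3, z ^ 4 - z ^ 2 + 1 ≠ 0 := by decide

/-- prime divisors of `x⁴ - x² + 1` -/
theorem phi_twelve {r : ℕ} (hr : r.Prime) {x : ℤ} (h : (r : ℤ) ∣ x ^ 4 - x ^ 2 + 1) : r % 12 = 1 := by
  have := Fact.mk hr
  have h0 : ((x : ZMod r)) ^ 4 - (x : ZMod r) ^ 2 + 1 = 0 := by
    have := (ZMod.intCast_zmod_eq_zero_iff_dvd (x ^ 4 - x ^ 2 + 1) r).2 h
    push_cast at this
    exact this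
  set y : ZMod r := (x : ZMod r) with hy
  have h2 : r ≠ 2 := by
    rintro rfl
    exact z_two y h0
  have h3 : r ≠ 3 := by
    rintro rfl
    exact z_three y h0
  have e6 : y ^ 6 = -1 := by linear_combination (y ^ 2 + 1) * h0
  have e12 : y ^ 12 = 1 := by
    have : y ^ 12 = (y ^ 6) ^ 2 := by ring
    rw [this, e6]
    ring
  have hne6 : y ^ 6 ≠ 1 := by
    rw [e6]
    intro h
    have h4 : ((2 : ℕ) : ZMod r) = 0 := by
      push_cast
      linear_combination -h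
    have h5 := (ZMod.natCast_eq_zero_iff 2 r).1 h4
    exact h2 ((Nat.prime_dvd_prime_iff_eq hr Nat.prime_two).1 h5)
  have hne4 : y ^ 4 ≠ 1 := by
    intro h4
    have h5 : y ^ 2 = 2 := by linear_combination h4 - h0
    have h6 : ((3 : ℕ) : ZMod r) = 0 := by
      push_cast
      have : y ^ 4 = 4 := by
        have : y ^ 4 = (y ^ 2) ^ 2 := by ring
        rw [this, h5]; norm_num
      linear_combination -this + h4
    exact h3 ((Nat.prime_dvd_prime_iff_eq hr Nat.prime_three).1 ((ZMod.natCast_eq_zero_iff 3 r).1 h6))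
  have hord : orderOf y = 12 := by
    have h1 : orderOf y ∣ 12 := orderOf_dvd_of_pow_eq_one e12
    have h6' : ¬ orderOf y ∣ 6 := fun h => hne6 (orderOf_dvd_iff_pow_eq_one.1 h)
    have h4' : ¬ orderOf y ∣ 4 := fun h => hne4 (orderOf_dvd_iff_pow_eq_one.1 h)
    have hle := Nat.le_of_dvd (by norm_num) h1
    have hpos : 0 < orderOf y := Nat.pos_of_dvd_of_pos h1 (by norm_num)
    generalize orderOf y = k at *
    interval_cases k <;> simp_all
  have hy0 : y ≠ 0 := by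
    intro h
    rw [h] at e12
    norm_num at e12
  have h7 : (12 : ℕ) ∣ r - 1 := by
    rw [← hord]
    exact orderOf_dvd_of_pow_eq_one (ZMod.pow_card_sub_one_eq_one hy0)
  have h8 := hr.two_le
  obtain ⟨k, hk⟩ := h7
  omega

theorem mod_twelve {r : ℕ} (hr : r.Prime) {d b : ℤ} (hd : d = 1 ∨ d = -1) (h : (r : ℤ) ∣ fN d b) : r % 12 = 1 := by
  refine phi_twelve hr (x := 2 * b ^ 2) ?_
  rw [← fN_mul]
  rcases hd with rfl | rfl
  · exact h.mul_right _
  · exact h.mul_left _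

theorem not_both {r : ℕ} (hr : r.Prime) {d b : ℤ} (hd : d = 1 ∨ d = -1) (h1 : (r : ℤ) ∣ fN d b)
    (h2 : (r : ℤ) ∣ fN (-d) b) : False := by
  have hr' : Prime (r : ℤ) := Nat.prime_iff_prime_int.1 hr
  have h12 := mod_twelve hr hd h1
  have key : ¬ (r : ℤ) ∣ 1 := hr'.not_dvd_one
  have hsub : (r : ℤ) ∣ 4 * (b * (2 * b ^ 2 + 1)) := by
    have h3 := dvd_sub h1 h2
    have h4 : fN d b - fN (-d) b = d * (4 * (b * (2 * b ^ 2 + 1))) := by
      unfold fN
      ring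
    rw [h4] at h3
    rcases hd with rfl | rfl
    · simpa using h3
    · simpa using h3
  rcases hr'.dvd_or_dvd hsub with h3 | h3
  · have h4 : r ∣ 4 := by exact_mod_cast h3
    have h5 : r ∣ 2 ^ 2 := h4
    have h6 := (Nat.prime_dvd_prime_iff_eq hr Nat.prime_two).1 (hr.dvd_of_dvd_pow h5)
    omega
  · rcases hr'.dvd_or_dvd h3 with h4 | h4
    · apply key
      have h5 : fN d b = b * (4 * b ^ 3 + 4 * d * b ^ 2 + 2 * b + 2 * d) + 1 := by
        unfold fN
        ring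
      rw [h5] at h1
      exact (dvd_add_right (h4.mul_right _)).1 h1
    · apply key
      rw [fN_eq] at h1
      exact (dvd_add_right (h4.mul_right _)).1 h1

theorem not_sq {d b : ℤ} (hd : d = 1 ∨ d = -1) (hb : 2 ≤ b) (z : ℤ) : z ^ 2 ≠ fN d b := by
  intro h
  wlog hz : 0 ≤ z with H
  · exact H hd hb (-z) (by rw [neg_sq]; exact h) (by omega)
  have h1 : (2 * b ^ 2 + d * b) ^ 2 < z ^ 2 := by
    rw [h]
    rcases hd with rfl | rfl
    · unfold fN
      nlinarith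
    · unfold fN
      nlinarith
  have h2 : z ^ 2 < (2 * b ^ 2 + d * b + 1) ^ 2 := by
    rw [h]
    rcases hd with rfl | rfl
    · unfold fN
      nlinarith
    · unfold fN
      nlinarith
  have hpos : 0 ≤ 2 * b ^ 2 + d * b := by
    rcases hd with rfl | rfl <;> nlinarith
  have h3 : z < 2 * b ^ 2 + d * b + 1 := lt_of_pow_lt_pow_left₀ 2 (by omega) h2
  have h4 : 2 * b ^ 2 + d * b < z := lt_of_pow_lt_pow_left₀ 2 hz h1
  omega

/-- a prime power which is 1 modulo `2 ^ j` with an odd exponent -/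
theorem one_of_pow {p a j : ℕ} (ha : Odd a) (hp : Odd p) (h : ((2 : ℤ) ^ j) ∣ (p : ℤ) ^ a - 1) :
    ((2 : ℤ) ^ j) ∣ (p : ℤ) - 1 := by
  have h1 : (∑ i ∈ Finset.range a, (p : ℤ) ^ i) * ((p : ℤ) - 1) = (p : ℤ) ^ a - 1 := geom_sum_mul _ _
  rw [← h1] at h
  refine IsCoprime.dvd_of_dvd_mul_left ?_ h
  refine IsCoprime.pow_left ?_
  have hodd : Odd (∑ i ∈ Finset.range a, (p : ℤ) ^ i) := by
    have e : (∑ i ∈ Finset.range a, (p : ℤ) ^ i) = ((∑ i ∈ Finset.range a, p ^ i : ℕ) : ℤ) := by push_cast; rfl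
    rw [e]
    have h2 : Odd (∑ i ∈ Finset.range a, p ^ i) := by
      rw [Finset.odd_sum_iff_odd_card_odd]
      have : (Finset.range a).filter (fun i => Odd (p ^ i)) = Finset.range a :=
        Finset.filter_true_of_mem fun i _ => hp.pow
      rw [this, Finset.card_range]
      exact ha
    exact_mod_cast h2
  rw [Int.isCoprime_iff_gcd_eq_one]
  have : Int.gcd 2 (∑ i ∈ Finset.range a, (p : ℤ) ^ i) ∣ 2 := by
    have := Int.gcd_dvd_left (a := 2) (b := ∑ i ∈ Finset.range a, (p : ℤ) ^ i)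
    exact_mod_cast this
  rcases (Nat.dvd_prime Nat.prime_two).1 this with h2 | h2
  · exact h2
  · exfalso
    have h3 := Int.gcd_dvd_right (a := 2) (b := ∑ i ∈ Finset.range a, (p : ℤ) ^ i)
    rw [h2] at h3
    have h4 := Int.not_even_iff_odd.2 hodd
    exact h4 (even_iff_two_dvd.2 (by exact_mod_cast h3))

/-- **`fN d b` is no proper power.** -/
theorem pow_eq {m : ℕ} (hm : 1 ≤ m) {d : ℤ} (hd : d = 1 ∨ d = -1) {p a : ℕ} (hp : p.Prime)
    (h : ((p ^ a : ℕ) : ℤ) = fN d (2 ^ m)) : a = 1 := by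
  set b : ℤ := 2 ^ m with hb
  have hb2 : 2 ≤ b := by
    rw [hb]
    calc (2 : ℤ) = 2 ^ 1 := by norm_num
      _ ≤ 2 ^ m := pow_le_pow_right₀ (by norm_num) hm
  have h' : (p : ℤ) ^ a = fN d b := by exact_mod_cast h
  have ha : Odd a := by
    by_contra hc
    obtain ⟨k, hk⟩ := Nat.not_odd_iff_even.1 hc
    refine not_sq hd hb2 ((p : ℤ) ^ k) ?_
    rw [← h', hk]
    ring
  have hpo : Odd p := by
    rcases hp.eq_two_or_odd' with h2 | h2
    · exfalso
      have h3 : (2 : ℤ) ∣ (p : ℤ) ^ a := by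
        rw [h2]
        exact dvd_pow_self _ ha.pos.ne'
      rw [h', fN_eq] at h3
      have h4 : (2 : ℤ) ∣ (2 * b ^ 2 + 1) * (2 * b ^ 2 + 2 * d * b) :=
        Dvd.dvd.mul_left ⟨b ^ 2 + d * b, by ring⟩ _
      have h5 := (dvd_add_right h4).1 h3
      omega
    · exact h2
  have hdvd : ((2 : ℤ) ^ (m + 1)) ∣ (p : ℤ) - 1 := by
    refine one_of_pow ha hpo ?_
    rw [h', fN_sub_one, pow_succ, ← hb]
    exact ⟨(b + d) * (2 * b ^ 2 + 1), by ring⟩
  obtain ⟨c, hc⟩ := hdvd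
  rw [pow_succ, ← hb] at hc
  have hp2 := hp.two_le
  have hc1 : 1 ≤ c := by
    by_contra hcon
    have h1 : b * 2 * c ≤ 0 := by nlinarith
    rw [← hc] at h1
    have : (2 : ℤ) ≤ p := by exact_mod_cast hp2
    omega
  have hpe : (p : ℤ) = 2 * b * c + 1 := by linarith
  have hple : 2 * b + 1 ≤ (p : ℤ) := by
    rw [hpe]
    nlinarith
  have ha3 : a ≤ 3 := by
    by_contra hcon
    have h1 : (2 * b + 1) ^ 4 ≤ (p : ℤ) ^ a :=
      calc (2 * b + 1) ^ 4 ≤ (p : ℤ) ^ 4 := pow_le_pow_left₀ (by positivity) hple 4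
        _ ≤ (p : ℤ) ^ a := pow_le_pow_right₀ (by nlinarith) (by omega)
    rw [h'] at h1
    have h2 : fN d b < (2 * b + 1) ^ 4 := by
      unfold fN
      rcases hd with rfl | rfl <;> nlinarith [pow_pos (show (0 : ℤ) < b by omega) 3, pow_pos (show (0 : ℤ) < b by omega) 4]
    omega
  obtain ⟨k, hk⟩ := ha
  have hcases : a = 1 ∨ a = 3 := by omega
  rcases hcases with h1 | h1
  · exact h1
  · exfalso
    rw [h1, hpe] at h'
    -- divide by `2 b`
    have h3 : 3 * c + 6 * b * c ^ 2 + 4 * b ^ 2 * c ^ 3 = 2 * b ^ 3 + 2 * d * b ^ 2 + b + d := by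
      have h4 : 2 * b * (3 * c + 6 * b * c ^ 2 + 4 * b ^ 2 * c ^ 3) =
          2 * b * (2 * b ^ 3 + 2 * d * b ^ 2 + b + d) := by
        have h5 := h'
        unfold fN at h5
        linear_combination h5
      exact mul_left_cancel₀ (by positivity) h4
    have h4 : b ∣ 3 * c - d := by
      refine ⟨2 * b ^ 2 + 2 * d * b + 1 - 6 * c ^ 2 - 4 * b * c ^ 3, ?_⟩
      linear_combination h3
    have h5 : b ≤ 3 * c - d := Int.le_of_dvd (by rcases hd with rfl | rfl <;> omega) h4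
    have hc2 : c = 1 := by
      by_contra hne
      have hc3 : 2 ≤ c := by omega
      have hb0 : 0 < b := by omega
      have h6 : 2 * b ^ 3 ≤ 2 * b ^ 2 * (3 * c + 1) := by
        have : b ≤ 3 * c + 1 := by rcases hd with rfl | rfl <;> omega
        nlinarith [pow_pos hb0 2]
      have h7 : 2 * d * b ^ 2 ≤ 2 * b ^ 2 := by
        rcases hd with rfl | rfl <;> nlinarith [pow_pos hb0 2]
      have h8 : d ≤ 1 := by rcases hd with rfl | rfl <;> omega
      have h9 : 8 * c ≤ 2 * (c ^ 3) := by nlinarith [mul_pos (show (0:ℤ) < c by omega) (show (0:ℤ) < c by omega)]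
      have h10 : 4 * b ^ 2 * c ^ 3 ≥ 16 * b ^ 2 * c := by nlinarith [pow_pos hb0 2]
      nlinarith [pow_pos hb0 2, mul_pos (pow_pos hb0 2) (show (0:ℤ) < c by omega)]
    rw [hc2] at h3 h5
    have hb4 : b ≤ 4 := by rcases hd with rfl | rfl <;> omega
    rcases hd with rfl | rfl <;> interval_cases b <;> omega

theorem ne_757 {m : ℕ} (hm : 1 ≤ m) {d : ℤ} (hd : d = 1 ∨ d = -1) {a : ℕ} :
    ((757 ^ a : ℕ) : ℤ) ≠ fN d (2 ^ m) := by
  intro h
  have ha := pow_eq hm hd (by norm_num) h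
  rw [ha] at h
  have h1 : ((757 : ℕ) : ℤ) - 1 = 2 * 2 ^ m * (2 ^ m + d) * (2 * (2 ^ m) ^ 2 + 1) := by
    rw [← fN_sub_one, ← h]
    norm_num
  rcases Nat.lt_or_ge m 2 with h2 | h2
  · obtain rfl : m = 1 := by omega
    rcases hd with rfl | rfl <;> norm_num at h1
  · have h4 : (4 : ℤ) ≤ 2 ^ m :=
      calc (4 : ℤ) = 2 ^ 2 := by norm_num
        _ ≤ 2 ^ m := pow_le_pow_right₀ (by norm_num) h2
    generalize (2 : ℤ) ^ m = b at *
    have h5 : 3 ≤ b + d := by rcases hd with rfl | rfl <;> omega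
    have h6 : 33 ≤ 2 * b ^ 2 + 1 := by nlinarith
    have h7 : 24 ≤ 2 * b * (b + d) := by nlinarith
    have h8 : 24 * 33 ≤ 2 * b * (b + d) * (2 * b ^ 2 + 1) := by nlinarith
    rw [← h1] at h8
    norm_num at h8

end Cfsg.Agent.H343.PG
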